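import Cfsg.Agent.H21.NonSolvable
import Cfsg.Agent.H19.Fitting
import Cfsg.Agent.H83.QuaternionSFour
import Cfsg.Agent.H62.AutAlternating

/-!
The five possible quotients of a group acting fixed-point-freely by a normal `Z`-group.
-/

namespace Cfsg.Agent.H21

open Zass

universe u

/-- The quotient of the generalised quaternion group by its cyclic subgroup of index four. -/
theorem exists_hom_klein (n : ℕ) : ∃ d : QuaternionGroup (2 * n) →* DihedralGroup 2,
    Function.Surjective d ∧ IsCyclic d.ker := by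
  have h2 : (2 : ℕ) ∣ 2 * (2 * n) := ⟨2 * n, rfl⟩
  let c := ZMod.castHom h2 (ZMod 2)
  let f : QuaternionGroup (2 * n) → DihedralGroup 2
    | .a i => .r (c i)
    | .xa i => .sr (c i)
  have hn0 : c ((2 * n : ℕ) : ZMod (2 * (2 * n))) = 0 := by
    rw [map_natCast, ZMod.natCast_eq_zero_iff]; exact ⟨n, rfl⟩
  let d : QuaternionGroup (2 * n) →* DihedralGroup 2 := MonoidHom.mk' f (by
    rintro (i | i) (j | j)
    · simp only [QuaternionGroup.a_mul_a, f, DihedralGroup.r_mul_r, map_add]
    · simp only [QuaternionGroup.a_mul_xa, f, DihedralGroup.r_mul_sr, map_sub]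
    · simp only [QuaternionGroup.xa_mul_a, f, DihedralGroup.sr_mul_r, map_add]
    · simp only [QuaternionGroup.xa_mul_xa, f, DihedralGroup.sr_mul_sr, map_add, map_sub, hn0, zero_add])
  refine ⟨d, ?_, ?_⟩
  · rintro (i | i)
    · exact ⟨.a (i.val : ℕ), by show DihedralGroup.r (c _) = _; rw [map_natCast, ZMod.natCast_zmod_val]⟩
    · exact ⟨.xa (i.val : ℕ), by show DihedralGroup.sr (c _) = _; rw [map_natCast, ZMod.natCast_zmod_val]⟩
  · have hle : d.ker ≤ Subgroup.zpowers (QuaternionGroup.a 1) := by
      rintro (i | i) hi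
      · obtain ⟨j, rfl⟩ := ZMod.intCast_surjective i
        refine ⟨j, ?_⟩
        show (QuaternionGroup.a 1) ^ j = _
        rcases Int.eq_nat_or_neg j with ⟨m, rfl | rfl⟩
        · rw [zpow_natCast, QuaternionGroup.a_one_pow, Int.cast_natCast]
        · rw [zpow_neg, zpow_natCast, QuaternionGroup.a_one_pow, Int.cast_neg, Int.cast_natCast]
          rfl
      · exact absurd hi (fun h => nomatch (h : DihedralGroup.sr (c i) = DihedralGroup.r 0))
    exact Subgroup.isCyclic_of_le hle

/-- The five quotient types, for a surjection with `Z`-group kernel. -/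
def HasQuotient (G : Type*) [Group G] (Q : Type*) [Group Q] : Prop :=
  ∃ f : G →* Q, Function.Surjective f ∧ IsZGroup f.ker

/-- A surjection onto a transported group. -/
theorem hasQuotient_of_range {G M Q : Type*} [Group G] [Group M] [Group Q] (φ : G →* M)
    (hker : IsZGroup φ.ker) (e : φ.range ≃* Q) : HasQuotient G Q := by
  refine ⟨e.toMonoidHom.comp φ.rangeRestrict, e.surjective.comp φ.rangeRestrict_surjective, ?_⟩
  have : (e.toMonoidHom.comp φ.rangeRestrict).ker = φ.ker := by
    ext g
    simp [MonoidHom.mem_ker]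
  rw [this]; exact hker

variable {G : Type*} [Group G] [Finite G] {K : Type u} [Group K] [Finite K] [Nontrivial K]
  {ψ : G →* MulAut K}

/-- A subgroup is a `Z`-group when its `2`-subgroups are cyclic. -/
theorem isZGroup_of_two (hfpf : ∀ e : G, e ≠ 1 → ∀ x : K, ψ e x = x → x = 1) {N : Subgroup G}
    (h : ∀ T : Subgroup G, T ≤ N → IsPGroup 2 T → IsCyclic T) : IsZGroup N := ⟨fun p hp P => by
  have := Fact.mk hp
  have hiso := ((P : Subgroup N).equivMapOfInjective N.subtype N.subtype_injective).symm.surjective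
  by_cases hp2 : p = 2
  · subst hp2
    have := h _ (Subgroup.map_subtype_le (P : Subgroup N)) (P.2.map N.subtype)
    exact isCyclic_of_surjective _ hiso
  · have := Zass.sylow_cyclic ψ hfpf hp2 (P.2.map N.subtype)
    exact isCyclic_of_surjective _ hiso⟩

/-- The solvable case. -/
theorem quotient_of_solvable [Group.IsSolvable G]
    (hfpf : ∀ e : G, e ≠ 1 → ∀ x : K, ψ e x = x → x = 1) (hZ : ¬ IsZGroup G) :
    HasQuotient G (DihedralGroup 2) ∨ HasQuotient G (alternatingGroup (Fin 4)) ∨
      HasQuotient G (Equiv.Perm (Fin 4)) := by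
  obtain ⟨P, hP⟩ : ∃ P : Sylow 2 G, ¬ IsCyclic P := by
    by_contra hall
    push Not at hall
    refine hZ ⟨fun p hp P => ?_⟩
    have := Fact.mk hp
    by_cases hp2 : p = 2
    · subst hp2; exact hall P
    · exact Zass.sylow_cyclic ψ hfpf hp2 P.2
  have uniq : ∀ {T : Subgroup G}, IsPGroup 2 T → IsCyclic T ∨ ∃ n, Nonempty (T ≃* QuaternionGroup (2 ^ n)) := by
    intro T hT
    exact (cyclic_or_quaternion 2 hT (unique_subgroup_of_fpf hT (ψ.comp T.subtype)
      fun e he x hx => hfpf e (fun h => he (Subtype.ext h)) x hx)).imp_right And.right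
  obtain ⟨n, ⟨eP⟩⟩ := (uniq P.2).resolve_left hP
  obtain ⟨m, rfl⟩ : ∃ m, n = m + 1 := by
    refine Nat.exists_eq_succ_of_ne_zero fun h0 => hP ?_
    subst h0
    have : IsCyclic (QuaternionGroup (2 ^ 0)) :=
      isCyclic_of_orderOf_eq_card (QuaternionGroup.xa 0) (by
        rw [QuaternionGroup.orderOf_xa, Nat.card_eq_fintype_card, QuaternionGroup.card, pow_zero, mul_one])
    exact isCyclic_of_surjective eP.symm eP.symm.surjective
  set O := Cfsg.pPrimeCore 2 G with hO
  have hOn : O.Normal := H19.pPrimeCore_normal 2 G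
  set q := QuotientGroup.mk' O with hq
  have hqs : Function.Surjective q := QuotientGroup.mk'_surjective O
  have hinj : ∀ {T : Subgroup G}, IsPGroup 2 T → Function.Injective (q.comp T.subtype) := by
    intro T hT
    rw [injective_iff_map_eq_one]
    intro t ht
    obtain ⟨j, hj⟩ := hT t
    have hd1 : orderOf (t : G) ∣ Nat.card O := by
      rw [← Subgroup.orderOf_mk (t : G) ((QuotientGroup.eq_one_iff _).mp ht)]
      exact orderOf_dvd_natCard _
    have hd2 : orderOf (t : G) ∣ 2 ^ j := orderOf_dvd_of_pow_eq_one (by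
      simpa using congrArg Subtype.val hj)
    exact Subtype.ext (orderOf_eq_one_iff.mp
      (Nat.eq_one_of_dvd_coprimes ((H19.pPrimeCore_coprime (G := G) 2).pow_right j) hd1 hd2))
  -- kernels with cyclic image are Z-groups
  have hker : ∀ {M : Type} [Group M] (φ : (G ⧸ O) →* M), IsCyclic φ.ker → IsZGroup (φ.comp q).ker := by
    intro M _ φ hc
    refine isZGroup_of_two hfpf fun T hT hT2 => ?_
    let g : T →* φ.ker := (q.comp T.subtype).codRestrict φ.ker fun t => hT t.2
    exact isCyclic_of_injective g fun a b h => hinj hT2 (congrArg Subtype.val h)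
  set P' := P.mapSurjective (f := q) hqs with hP'
  have hOq : Cfsg.pPrimeCore 2 (G ⧸ O) = ⊥ := H19.pPrimeCore_quotient_pPrimeCore 2
  set T := Cfsg.pCore 2 (G ⧸ O) with hT
  have hTn : T.Normal := H19.pCore_normal 2 _
  have hCT : Subgroup.centralizer (T : Set (G ⧸ O)) ≤ T := H19.centralizer_pCore_le hOq
  let conj : (G ⧸ O) →* MulAut T := MulAut.conjNormal
  have hconj : ∀ x, conj x = 1 → x ∈ Subgroup.centralizer (T : Set (G ⧸ O)) := fun x hx =>
    Subgroup.mem_centralizer_iff.mpr fun t ht => by
      have h1 : x * t * x⁻¹ = t := congrArg (fun f : MulAut T => (f ⟨t, ht⟩ : G ⧸ O)) hx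
      exact (mul_inv_eq_iff_eq_mul.mp h1).symm
  have hTp : IsPGroup 2 T := H19.pCore_isPGroup 2
  by_cases hodd : ∀ x : G ⧸ O, Odd (orderOf x) → conj x = 1
  · -- the quotient is a 2-group
    have h2 : IsPGroup 2 (G ⧸ O) := by
      refine IsPGroup.of_card (n := (Nat.card (G ⧸ O)).primeFactorsList.length)
        (Nat.eq_prime_pow_of_unique_prime_dvd Nat.card_pos.ne' fun {r} hr hrd => ?_)
      by_contra hr2
      have := Fact.mk hr
      obtain ⟨x, hx⟩ := exists_prime_orderOf_dvd_card' (G := G ⧸ O) r hrd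
      have hxT := hCT (hconj x (hodd x (hx ▸ hr.odd_of_ne_two hr2)))
      obtain ⟨j, hj⟩ := hTp ⟨x, hxT⟩
      have hd := orderOf_dvd_of_pow_eq_one (show x ^ 2 ^ j = 1 by simpa using congrArg Subtype.val hj)
      rw [hx] at hd
      exact hr2 ((Nat.prime_dvd_prime_iff_eq hr Nat.prime_two).mp (hr.dvd_of_dvd_pow hd))
    have hbij : Function.Bijective (q.comp (P : Subgroup G).subtype) := by
      refine ⟨hinj P.2, fun x => ?_⟩
      have htop : (P' : Subgroup (G ⧸ O)) = ⊤ :=
        (P'.3 (h2.to_subgroup ⊤) le_top).symm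
      have hx : x ∈ (P : Subgroup G).map q := by
        have : x ∈ (P' : Subgroup (G ⧸ O)) := htop ▸ Subgroup.mem_top x
        exact this
      obtain ⟨a, ha, rfl⟩ := hx
      exact ⟨⟨a, ha⟩, rfl⟩
    let e := (MulEquiv.ofBijective _ hbij).symm.trans eP
    obtain ⟨d, hd, hdc⟩ := exists_hom_klein (2 ^ m)
    have e' : QuaternionGroup (2 ^ (m + 1)) ≃* QuaternionGroup (2 * 2 ^ m) := by
      rw [pow_succ']
    let d' := d.comp (e.trans e').toMonoidHom
    refine Or.inl ⟨d'.comp q, (hd.comp (e.trans e').surjective).comp hqs, hker d' ?_⟩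
    exact isCyclic_of_injective
      (((e.trans e').toMonoidHom.comp d'.ker.subtype).codRestrict d.ker fun x => x.2)
      fun a b h => Subtype.ext ((e.trans e').injective (congrArg Subtype.val h))
  right
  push Not at hodd
  obtain ⟨x, hxodd, hx⟩ := hodd
  have hxr : conj x ^ orderOf x = 1 := by rw [← map_pow, pow_orderOf_eq_one, map_one]
  obtain ⟨g⟩ : Nonempty (T ≃* QuaternionGroup 2) := by
    have hTle : T ≤ (P : Subgroup G).map q := H19.pCore_le_sylow P'
    set T₀ := (T.comap q ⊓ (P : Subgroup G)) with hT₀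
    have hT₀2 : IsPGroup 2 T₀ := P.2.to_le inf_le_right
    let gT : T₀ →* T := (q.comp T₀.subtype).codRestrict T fun t => t.2.1
    have hgT : Function.Bijective gT := by
      refine ⟨fun a b h => hinj hT₀2 (congrArg Subtype.val h), fun t => ?_⟩
      obtain ⟨a, ha, e⟩ := hTle t.2
      exact ⟨⟨a, ⟨show q a ∈ T from e ▸ t.2, ha⟩⟩, Subtype.ext e⟩
    rcases uniq hT₀2 with hc | ⟨j, ⟨ej⟩⟩
    · exfalso
      have : IsCyclic T := isCyclic_of_surjective gT hgT.2
      exact hx (H23.mulAut_eq_one_of_isCyclic hTp _ hxodd hxr)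
    · let e1 := (MulEquiv.ofBijective gT hgT).symm.trans ej
      set τ := MulAut.congr (e1.trans Subgroup.topEquiv.symm) (conj x) with hτ
      obtain ⟨e2⟩ := H23.q8_of_odd_auto ⊤ τ hxodd (by rw [hτ, ← map_pow, hxr, map_one])
        fun e0 => hx ((MulAut.congr _).injective (e0.trans (map_one _).symm))
      exact ⟨(e1.trans Subgroup.topEquiv.symm).trans e2.symm⟩
  obtain ⟨aut⟩ := H83.aut_q8_equiv
  let φ : (G ⧸ O) →* Equiv.Perm (Fin 4) :=
    (aut.toMonoidHom.comp (MulAut.congr g).toMonoidHom).comp conj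
  have hφker : ∀ y, φ y = 1 → y ∈ Subgroup.centralizer (T : Set (G ⧸ O)) := fun y hy => hconj y
    ((MulAut.congr g).injective ((aut.injective (hy.trans aut.map_one.symm)).trans (map_one _).symm))
  have hq8 : ∀ y : QuaternionGroup 2, (∀ w, y * w = w * y) → y = 1 ∨ y = QuaternionGroup.a 2 := by
    decide +kernel
  set z : T := g.symm (QuaternionGroup.a 2) with hz
  have hkc : φ.ker ≤ Subgroup.zpowers (z : G ⧸ O) := fun y hy => by
    have hyC := hφker y hy
    have hyT := hCT hyC
    rcases hq8 (g ⟨y, hyT⟩) (fun w => by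
        obtain ⟨w, rfl⟩ := g.surjective w
        rw [← map_mul, ← map_mul]
        exact congrArg g (Subtype.ext (Subgroup.mem_centralizer_iff.mp hyC w w.2).symm)) with h | h
    · rw [show y = 1 from congrArg Subtype.val (g.injective (h.trans g.map_one.symm))]
      exact one_mem _
    · rw [show y = (z : G ⧸ O) from congrArg Subtype.val (g.eq_symm_apply.mpr h)]
      exact Subgroup.mem_zpowers _
  have hZ' : IsZGroup (φ.comp q).ker := hker φ (Subgroup.isCyclic_of_le hkc)
  have h3 : 3 ∣ Nat.card φ.range := by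
    have h1 : φ x ^ 3 = 1 := by
      have h := (H23.exists_sl_conj (MulAut.congr g (conj x)) hxodd (by rw [← map_pow, hxr, map_one])
        fun e0 => hx ((MulAut.congr g).injective (e0.trans (map_one _).symm))).1
      show aut (MulAut.congr g (conj x)) ^ 3 = 1
      rw [← map_pow, h, map_one]
    have h2 : φ x ≠ 1 := fun e0 => hx ((MulAut.congr g).injective
      ((aut.injective (e0.trans aut.map_one.symm)).trans (map_one _).symm))
    have := Fact.mk Nat.prime_three
    rw [← orderOf_eq_prime h1 h2, ← Subgroup.orderOf_mk (H := φ.range) (φ x) ⟨x, rfl⟩]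
    exact orderOf_dvd_natCard _
  have h4 : 4 ∣ Nat.card φ.range := by
    have hT8 : Nat.card T = 8 := by
      rw [Nat.card_congr g.toEquiv, Nat.card_eq_fintype_card, QuaternionGroup.card]
    have hk : Nat.card (φ.comp T.subtype).ker ≤ 2 := by
      have hz2 : orderOf z = 2 := by
        rw [hz, MulEquiv.orderOf_eq]
        exact orderOf_eq_prime (by decide +kernel) (by decide +kernel)
      rw [← hz2, ← Nat.card_zpowers]
      refine Subgroup.card_le_of_le fun t ht => ?_
      obtain ⟨i, hi⟩ := hkc (show (t : G ⧸ O) ∈ φ.ker from ht)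
      exact ⟨i, Subtype.ext (by simpa using hi)⟩
    have hmul := (φ.comp T.subtype).ker.index_mul_card
    rw [hT8, Subgroup.index_ker] at hmul
    have hd : Nat.card (φ.comp T.subtype).range ∣ Nat.card φ.range :=
      Subgroup.card_dvd_of_le (by rintro _ ⟨t, rfl⟩; exact ⟨(t : G ⧸ O), rfl⟩)
    refine dvd_trans ?_ hd
    generalize Nat.card (φ.comp T.subtype).range = r at hmul
    generalize hs : Nat.card (φ.comp T.subtype).ker = s at hmul hk
    have hs0 : 0 < s := hs ▸ Nat.card_pos
    interval_cases s <;> omega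
  have hrange : (φ.comp q).range = φ.range := by
    ext y
    constructor
    · rintro ⟨a, rfl⟩; exact ⟨q a, rfl⟩
    · rintro ⟨b, rfl⟩; obtain ⟨a, rfl⟩ := hqs b; exact ⟨a, rfl⟩
  have h24 : Nat.card (Equiv.Perm (Fin 4)) = 24 := by
    rw [Nat.card_eq_fintype_card]; decide +kernel
  have hdvd : Nat.card φ.range ∣ 24 := h24 ▸ φ.range.card_subgroup_dvd_card
  have : Nat.card φ.range = 12 ∨ Nat.card φ.range = 24 := by
    have h12 : 12 ∣ Nat.card φ.range := Nat.Coprime.mul_dvd_of_dvd_of_dvd (by norm_num : Nat.Coprime 3 4) h3 h4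
    obtain ⟨c, hc⟩ := h12
    have hle := Nat.le_of_dvd (by norm_num) hdvd
    have hpos : 0 < Nat.card φ.range := Nat.card_pos
    omega
  rcases this with h | h
  · left
    refine hasQuotient_of_range (φ.comp q) hZ' (MulEquiv.subgroupCongr (hrange.trans ?_))
    refine Equiv.Perm.eq_alternatingGroup_of_index_eq_two ?_
    have := φ.range.index_mul_card
    rw [h, h24] at this
    omega
  · right
    refine hasQuotient_of_range (φ.comp q) hZ' ((MulEquiv.subgroupCongr
      (hrange.trans (Subgroup.eq_top_of_card_eq _ (h.trans h24.symm)))).trans Subgroup.topEquiv)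

/-- An automorphism of a perfect cover induces one of the alternating group. -/
theorem exists_mulAut_hom {S : Type*} [Group S] [Finite S] {θ : S →* alternatingGroup (Fin 5)}
    (C : IsCover θ) (hθ : Function.Surjective θ) (hperf : commutator S = ⊤) {z : S} (hz : IsInvol z)
    (hzθ : θ z = 1) :
    ∃ F : MulAut S →* MulAut (alternatingGroup (Fin 5)), Function.Injective F := by
  have hker : ∀ (α : MulAut S) (s t : S), θ s = θ t → θ (α s) = θ (α t) := by
    intro α s t h
    have hk : θ (s⁻¹ * t) = 1 := by rw [map_mul, map_inv, h, inv_mul_cancel]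
    have : θ (α (s⁻¹ * t)) = 1 := by
      by_cases h1 : s⁻¹ * t = 1
      · rw [h1, map_one, map_one]
      · rw [(C.invol _ hz).2 (α (s⁻¹ * t))
          ((isInvol_map (f := α.toMonoidHom) α.injective).mpr ⟨C.ker _ hk, h1⟩), hzθ]
    rw [map_mul, map_inv, map_mul, map_inv, inv_mul_eq_one] at this
    exact this
  choose sec hsec using hθ
  let f : MulAut S → alternatingGroup (Fin 5) → alternatingGroup (Fin 5) := fun α a => θ (α (sec a))
  have hf : ∀ α s, f α (θ s) = θ (α s) := fun α s => hker α _ _ (hsec (θ s))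
  have hcomp : ∀ α β a, f α (f β a) = f (α * β) a := fun α β a => by
    show f α (θ (β (sec a))) = _
    rw [hf]; rfl
  have hone : ∀ a, f 1 a = a := fun a => hsec a
  let F : MulAut S →* MulAut (alternatingGroup (Fin 5)) :=
    { toFun := fun α =>
        { toFun := f α
          invFun := f α⁻¹
          left_inv := fun a => by rw [hcomp, inv_mul_cancel, hone]
          right_inv := fun a => by rw [hcomp, mul_inv_cancel, hone]
          map_mul' := fun a b => by
            rw [← hsec a, ← hsec b, ← map_mul, hf, hf, hf, map_mul, map_mul] }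
      map_one' := MulEquiv.ext hone
      map_mul' := fun α β => MulEquiv.ext fun a => (hcomp α β a).symm }
  refine ⟨F, (injective_iff_map_eq_one F).mpr fun α hα => MulEquiv.ext fun s => ?_⟩
  have h1 : ∀ s, θ (α s) = θ s := fun s => by
    rw [← hf]; exact congrArg (fun e : MulAut (alternatingGroup (Fin 5)) => e (θ s)) hα
  have central : ∀ y, θ y = 1 → ∀ x, y * x = x * y := fun y hy x => by
    by_cases hy1 : y = 1
    · rw [hy1, one_mul, mul_one]
    · exact (C.invol _ ⟨C.ker y hy, hy1⟩).1 x
  let δ : S →* θ.ker := MonoidHom.mk' (fun s => ⟨α s * s⁻¹, by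
      rw [MonoidHom.mem_ker, map_mul, map_inv, h1, mul_inv_cancel]⟩) fun a b => Subtype.ext (by
    show α (a * b) * (a * b)⁻¹ = α a * a⁻¹ * (α b * b⁻¹)
    have hc := central (α b * b⁻¹) (by rw [map_mul, map_inv, h1, mul_inv_cancel]) a⁻¹
    calc α (a * b) * (a * b)⁻¹ = α a * ((α b * b⁻¹) * a⁻¹) := by rw [map_mul, mul_inv_rev]; simp only [mul_assoc]
      _ = α a * (a⁻¹ * (α b * b⁻¹)) := by rw [hc]
      _ = _ := by simp only [mul_assoc])
  have hsol : Group.IsSolvable δ.range := by
    refine H6.isSolvable_of_card_lt_sixty ?_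
    calc Nat.card δ.range ≤ Nat.card θ.ker := Subgroup.card_le_card_group _
      _ < 60 := by
        have hle : θ.ker ≤ Subgroup.zpowers z := fun y hy => by
          by_cases hy1 : y = 1
          · rw [hy1]; exact one_mem _
          · rw [(C.invol _ hz).2 y ⟨C.ker y hy, hy1⟩]; exact Subgroup.mem_zpowers _
        refine (Subgroup.card_le_of_le hle).trans_lt ?_
        rw [Nat.card_zpowers, orderOf_eq_prime (p := 2) (by rw [pow_two]; exact hz.1) hz.2]
        norm_num
  have := congrArg Subtype.val (map_perfect_trivial hperf δ hsol s)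
  exact mul_inv_eq_one.mp this

/-- The non-solvable case. -/
theorem quotient_of_nonsolvable (hfpf : ∀ e : G, e ≠ 1 → ∀ x : K, ψ e x = x → x = 1)
    (hns : ¬ Group.IsSolvable G) :
    HasQuotient G (alternatingGroup (Fin 5)) ∨ HasQuotient G (Equiv.Perm (Fin 5)) := by
  have : Nontrivial G := not_subsingleton_iff_nontrivial.mp fun h => hns inferInstance
  obtain ⟨-, -, -, S, -, hSn, -, -, -, ⟨e⟩, hperf, -, -, -⟩ := exists_sl_times_zgroup ψ hfpf hns
  obtain ⟨k, _, _, V, _, _, _, _, ρ, hρ⟩ := exists_rep ψ hfpf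
  obtain ⟨θ₀, C₀, hθ₀, w, hw, hwθ⟩ := exists_cover_SL
  have i := S.subtype_injective
  let θ : S →* alternatingGroup (Fin 5) := θ₀.comp e.toMonoidHom
  have C : IsCover θ := ⟨fun g hg => e.injective (by rw [map_mul, map_one]; exact C₀.ker (e g) hg),
    (hρ.comp i).invol_central⟩
  have hθ : Function.Surjective θ := hθ₀.comp e.surjective
  obtain ⟨z, hz⟩ := e.surjective w
  have hzi : IsInvol z := (isInvol_map (f := e.toMonoidHom) e.injective).mp
    (by show IsInvol (e z); rw [hz]; exact hw)
  have hzθ : θ z = 1 := by show θ₀ (e z) = 1; rw [hz]; exact hwθ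
  have hcard : Nat.card S = 120 := by
    have h2 : Nat.card θ.ker = 2 := by
      rw [Nat.card_eq_two_iff]
      refine ⟨1, ⟨z, hzθ⟩, fun h => hzi.2 (congrArg Subtype.val h).symm, ?_⟩
      refine Set.eq_univ_of_forall fun a => ?_
      by_cases ha : (a : S) = 1
      · exact Or.inl (Subtype.ext ha)
      · exact Or.inr (Subtype.ext ((C.invol _ hzi).2 _ ⟨C.ker _ a.2, ha⟩))
    have h := θ.ker.index_mul_card
    rw [h2, Subgroup.index_ker, MonoidHom.range_eq_top.mpr hθ, Subgroup.card_top,
      Nat.card_eq_fintype_card] at h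
    have h60 : Fintype.card (alternatingGroup (Fin 5)) = 60 := by decide +kernel
    omega
  obtain ⟨F, hF⟩ := exists_mulAut_hom C hθ hperf hzi hzθ
  let aut : MulAut (alternatingGroup (Fin 5)) ≃* Equiv.Perm (Fin 5) := (MulEquiv.ofBijective _
    ⟨H62.conjNormal_injective (n := 5) (by norm_num),
      H62.conjNormal_surjective (n := 5) (by norm_num) (by norm_num)⟩).symm
  let φ : G →* Equiv.Perm (Fin 5) := (aut.toMonoidHom.comp F).comp MulAut.conjNormal
  have hφker : φ.ker = Subgroup.centralizer (S : Set G) := by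
    ext g
    rw [MonoidHom.mem_ker, Subgroup.mem_centralizer_iff]
    constructor
    · intro hg s hs
      have h1 : MulAut.conjNormal g = (1 : MulAut S) :=
        hF ((aut.injective (hg.trans aut.map_one.symm)).trans F.map_one.symm)
      have h2 : g * s * g⁻¹ = s := congrArg (fun f : MulAut S => (f ⟨s, hs⟩ : G)) h1
      exact (mul_inv_eq_iff_eq_mul.mp h2).symm
    · intro hg
      have h1 : MulAut.conjNormal g = (1 : MulAut S) := MulEquiv.ext fun s => Subtype.ext (by
        show g * s * g⁻¹ = s
        rw [← hg s s.2, mul_inv_cancel_right])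
      show aut (F (MulAut.conjNormal g)) = 1
      rw [h1, map_one, map_one]
  set Cz := Subgroup.centralizer (S : Set G) with hCz
  have hZC : IsZGroup φ.ker := by
    refine isZGroup_of_two hfpf fun T hT hT2 => ?_
    rw [hφker] at hT
    have hzG : IsInvol (z : G) := (isInvol_map i).mpr hzi
    refine Subgroup.isCyclic_of_le (G := G) (H' := Subgroup.zpowers (z : G)) fun a ha => ?_
    obtain ⟨j, hj⟩ := hT2 ⟨a, ha⟩
    have hsq : a * a = 1 := sq_of_mem_centralizer hρ C hθ j a (hT ha)
      (by simpa using congrArg Subtype.val hj)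
    by_cases h1 : a = 1
    · rw [h1]; exact one_mem _
    · rw [(hρ.invol_central _ hzG).2 a ⟨hsq, h1⟩]; exact Subgroup.mem_zpowers _
  have hrel : Cz.relIndex S = 60 := by
    have : Cz.subgroupOf S = θ.ker := by
      refine le_antisymm (fun s hs => cover_centre hθ hs) fun s hs => ?_
      rw [Subgroup.mem_subgroupOf, hCz, Subgroup.mem_centralizer_iff]
      intro t ht
      by_cases h1 : s = 1
      · rw [h1]; simp
      · exact congrArg Subtype.val ((C.invol _ ⟨C.ker s hs, h1⟩).1 ⟨t, ht⟩).symm
    show (Cz.subgroupOf S).index = 60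
    rw [this, Subgroup.index_ker, MonoidHom.range_eq_top.mpr hθ, Subgroup.card_top,
      Nat.card_eq_fintype_card]
    decide +kernel
  have hcard' : Nat.card φ.range = 60 ∨ Nat.card φ.range = 120 := by
    rw [← Subgroup.index_ker, hφker]
    have hCn : Cz.Normal := hφker ▸ φ.normal_ker
    have h1 : Cz.relIndex (S ⊔ Cz) * (S ⊔ Cz).index = Cz.index := Subgroup.relIndex_mul_index le_sup_right
    rw [Subgroup.relIndex_sup_right, hrel] at h1
    rcases index_sup_centralizer_le hρ hcard C hθ with h | h <;> rw [h] at h1 <;> omega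
  have h120 : Nat.card (Equiv.Perm (Fin 5)) = 120 := by
    rw [Nat.card_eq_fintype_card]; decide +kernel
  rcases hcard' with h | h
  · left
    refine hasQuotient_of_range φ hZC (MulEquiv.subgroupCongr
      (Equiv.Perm.eq_alternatingGroup_of_index_eq_two ?_))
    have := φ.range.index_mul_card
    rw [h, h120] at this
    omega
  · right
    exact hasQuotient_of_range φ hZC ((MulEquiv.subgroupCongr
      (Subgroup.eq_top_of_card_eq _ (h.trans h120.symm))).trans Subgroup.topEquiv)

/-- Every fixed-point-free group has one of the quotient types. -/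
theorem quotient_cases (hfpf : ∀ e : G, e ≠ 1 → ∀ x : K, ψ e x = x → x = 1) :
    IsZGroup G ∨ HasQuotient G (DihedralGroup 2) ∨ HasQuotient G (alternatingGroup (Fin 4)) ∨
      HasQuotient G (Equiv.Perm (Fin 4)) ∨ HasQuotient G (alternatingGroup (Fin 5)) ∨
      HasQuotient G (Equiv.Perm (Fin 5)) := by
  by_cases hZ : IsZGroup G
  · exact Or.inl hZ
  right
  by_cases hsol : Group.IsSolvable G
  · rcases quotient_of_solvable hfpf hZ with h | h | h
    exacts [Or.inl h, Or.inr (Or.inl h), Or.inr (Or.inr (Or.inl h))]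
  · rcases quotient_of_nonsolvable hfpf hsol with h | h
    exacts [Or.inr (Or.inr (Or.inr (Or.inl h))), Or.inr (Or.inr (Or.inr (Or.inr h)))]

end Cfsg.Agent.H21
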