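import Cfsg.Agent.H21.ComplementQuotient

/-!
Uniqueness of the normal `Z`-subgroup with quotient Klein, A4, S4, A5 or S5.
-/

namespace Cfsg.Agent.H21

open Zass

universe u

/-- No nontrivial normal cyclic subgroup, with small element orders: in decidable form. -/
def NoCyclicNormal (Q : Type*) [Group Q] : Prop :=
  (∀ h : Q, ∃ i : Fin 7, i ≠ 0 ∧ h ^ (i : ℕ) = 1) ∧
    ∀ h : Q, h ≠ 1 → ∃ g : Q, ∀ i : Fin 7, g * h * g⁻¹ ≠ h ^ (i : ℕ)

theorem noCyclicNormal_A4 : NoCyclicNormal (alternatingGroup (Fin 4)) := by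
  constructor <;> decide +kernel

theorem noCyclicNormal_S4 : NoCyclicNormal (Equiv.Perm (Fin 4)) := by
  constructor <;> decide +kernel

theorem noCyclicNormal_A5 : NoCyclicNormal (alternatingGroup (Fin 5)) := by
  constructor <;> decide +kernel

theorem noCyclicNormal_S5 : NoCyclicNormal (Equiv.Perm (Fin 5)) := by
  constructor <;> decide +kernel

/-- Such a group has no nontrivial normal `Z`-subgroup. -/
theorem NoCyclicNormal.eq_bot {Q : Type*} [Group Q] [Finite Q] (hQ : NoCyclicNormal Q)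
    (H : Subgroup Q) [H.Normal] [IsZGroup H] : H = ⊥ := by
  by_contra hH
  have : Nontrivial H := (Subgroup.nontrivial_iff_ne_bot H).mpr hH
  obtain ⟨C, hC, hC0, hCc⟩ : ∃ C : Subgroup H, C.Characteristic ∧ C ≠ ⊥ ∧ IsCyclic C := by
    by_cases h : commutator H = ⊥
    · have hc : IsMulCommutative H := by
        refine ⟨⟨fun a b => ?_⟩⟩
        have hm := Subgroup.commutator_mem_commutator (Subgroup.mem_top a) (Subgroup.mem_top b)
        rw [← commutator_def, h, Subgroup.mem_bot] at hm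
        exact commutatorElement_eq_one_iff_mul_comm.mp hm
      have : Group.IsNilpotent H := @CommGroup.isNilpotent H (open scoped IsMulCommutative in inferInstance)
      exact ⟨⊤, inferInstance, top_ne_bot,
        isCyclic_of_surjective Subgroup.topEquiv.symm Subgroup.topEquiv.symm.surjective⟩
    · exact ⟨commutator H, inferInstance, h, IsZGroup.isCyclic_commutator H⟩
  set D := C.map H.subtype with hD
  have hDn : D.Normal := inferInstance
  have hDc : IsCyclic D :=
    isCyclic_of_surjective _ (C.equivMapOfInjective H.subtype H.subtype_injective).surjective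
  obtain ⟨h, hh⟩ := (Subgroup.isCyclic_iff_exists_zpowers_eq_top D).mp hDc
  have h1 : h ≠ 1 := fun e => hC0 ((Subgroup.map_eq_bot_iff_of_injective C H.subtype_injective).mp
    (by rw [← hD, ← hh, e, Subgroup.zpowers_one_eq_bot]))
  obtain ⟨g, hg⟩ := hQ.2 h h1
  have hm : g * h * g⁻¹ ∈ Subgroup.zpowers h := by
    rw [hh]; exact hDn.conj_mem h (hh ▸ Subgroup.mem_zpowers h) g
  obtain ⟨j, hj⟩ := mem_powers_iff_mem_zpowers.mpr hm
  obtain ⟨i, hi0, hi⟩ := hQ.1 h
  have hlt : j % (i : ℕ) < 7 := (Nat.mod_lt j (Nat.pos_of_ne_zero fun e => hi0 (Fin.ext e))).trans i.2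
  refine hg ⟨j % (i : ℕ), hlt⟩ ?_
  rw [← hj]
  exact pow_eq_pow_mod j hi

/-- A kernel of a map onto such a group contains every normal `Z`-subgroup. -/
theorem le_ker_of_isZGroup {G Q : Type*} [Group G] [Finite G] [Group Q] [Finite Q]
    (hQ : NoCyclicNormal Q) (f : G →* Q) (hf : Function.Surjective f) (N : Subgroup G) [N.Normal]
    [IsZGroup N] : N ≤ f.ker := by
  have : (N.map f).Normal := Subgroup.Normal.map inferInstance f hf
  have : IsZGroup (N.map f) := IsZGroup.of_surjective (f.subgroupMap_surjective N)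
  exact (Subgroup.map_eq_bot_iff N).mp (hQ.eq_bot (N.map f))

/-- The Klein quotient is not a `Z`-group. -/
theorem not_isZGroup_klein : ¬ IsZGroup (DihedralGroup 2) := by
  intro h
  have hp : IsPGroup 2 (DihedralGroup 2) := IsPGroup.of_card (n := 2) (by
    rw [Nat.card_eq_fintype_card]; decide +kernel)
  have : Group.IsNilpotent (DihedralGroup 2) := hp.isNilpotent
  obtain ⟨g, hg⟩ := IsCyclic.exists_ofOrder_eq_natCard (α := DihedralGroup 2)
  have h2 : g ^ 2 = 1 := (by decide +kernel : ∀ g : DihedralGroup 2, g ^ 2 = 1) g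
  have := orderOf_dvd_of_pow_eq_one h2
  rw [hg, Nat.card_eq_fintype_card] at this
  exact absurd this (by decide +kernel)

/-- Such groups are not `Z`-groups. -/
theorem NoCyclicNormal.not_isZGroup {Q : Type*} [Group Q] [Finite Q] [Nontrivial Q]
    (hQ : NoCyclicNormal Q) : ¬ IsZGroup Q := fun h => by
  have : IsZGroup (⊤ : Subgroup Q) := inferInstance
  exact top_ne_bot (hQ.eq_bot ⊤)

variable {G : Type*} [Group G] [Finite G] {K : Type u} [Group K] [Finite K] [Nontrivial K]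
  {ψ : G →* MulAut K}

/-- Two Klein quotients with `Z`-group kernels have the same kernel. -/
theorem klein_ker_eq (hfpf : ∀ e : G, e ≠ 1 → ∀ x : K, ψ e x = x → x = 1)
    {f₁ f₂ : G →* DihedralGroup 2} (h₁ : Function.Surjective f₁) (h₂ : Function.Surjective f₂) :
    f₁.ker = f₂.ker := by
  classical
  let F : G →* DihedralGroup 2 × DihedralGroup 2 := f₁.prod f₂
  have hcard : Nat.card (DihedralGroup 2) = 4 := by rw [Nat.card_eq_fintype_card]; decide +kernel
  have hR2 : IsPGroup 2 F.range :=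
    (IsPGroup.of_card (n := 4) (by rw [Nat.card_prod, hcard]; norm_num) :
      IsPGroup 2 (DihedralGroup 2 × DihedralGroup 2)).to_subgroup _
  obtain ⟨P⟩ : Nonempty (Sylow 2 G) := inferInstance
  set P' := P.mapSurjective (f := F.rangeRestrict) F.rangeRestrict_surjective
  have htop : (P' : Subgroup F.range) = ⊤ := (P'.3 (hR2.to_subgroup ⊤) le_top).symm
  have hsq : ∀ x : DihedralGroup 2 × DihedralGroup 2, x * x = 1 := by decide +kernel
  obtain ⟨u, v, huv⟩ : ∃ u v : DihedralGroup 2 × DihedralGroup 2,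
      ∀ p : P, ∃ i j : ℕ, F p = u ^ i * v ^ j := by
    rcases cyclic_or_quaternion 2 P.2 (unique_subgroup_of_fpf P.2 (ψ.comp (P : Subgroup G).subtype)
      fun e he x hx => hfpf e (fun h => he (Subtype.ext h)) x hx) with hc | ⟨-, n, ⟨e⟩⟩
    · obtain ⟨a, ha⟩ := hc.exists_generator
      refine ⟨F a, 1, fun p => ?_⟩
      obtain ⟨i, hi⟩ := mem_powers_iff_mem_zpowers.mpr (ha p)
      exact ⟨i, 0, by rw [pow_zero, mul_one, ← hi, Subgroup.coe_pow, map_pow]⟩
    · refine ⟨F (e.symm (QuaternionGroup.xa 0)), F (e.symm (QuaternionGroup.a 1)), fun p => ?_⟩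
      obtain ⟨k, rfl⟩ := e.symm.surjective p
      have hk : ∀ m : ℕ, F (e.symm (QuaternionGroup.a (m : ZMod (2 * 2 ^ n)))) =
          F (e.symm (QuaternionGroup.a 1)) ^ m := fun m => by
        rw [← QuaternionGroup.a_one_pow, map_pow, Subgroup.coe_pow, map_pow]
      cases k with
      | a k => exact ⟨0, k.val, by rw [pow_zero, one_mul, ← hk, ZMod.natCast_zmod_val]⟩
      | xa k =>
        refine ⟨1, k.val, ?_⟩
        rw [pow_one, ← hk, ZMod.natCast_zmod_val, ← map_mul, ← Subgroup.coe_mul, ← map_mul,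
          QuaternionGroup.xa_mul_a, zero_add]
  have hle : Nat.card F.range ≤ 4 := by
    let S : Finset (DihedralGroup 2 × DihedralGroup 2) := {1, u, v, u * v}
    have hsub : ∀ r : F.range, r.1 ∈ S := fun r => by
      obtain ⟨g, hg, hgr⟩ : r ∈ (P : Subgroup G).map F.rangeRestrict := by
        have : r ∈ (P' : Subgroup F.range) := htop ▸ Subgroup.mem_top r
        exact this
      obtain ⟨i, j, hij⟩ := huv ⟨g, hg⟩
      have e1 : r.1 = u ^ i * v ^ j := by rw [← hgr]; exact hij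
      have hmod : ∀ (x : DihedralGroup 2 × DihedralGroup 2) (i : ℕ), x ^ i = 1 ∨ x ^ i = x := fun x i => by
        rw [pow_eq_pow_mod i (show x ^ 2 = 1 by rw [pow_two]; exact hsq x)]
        rcases Nat.mod_two_eq_zero_or_one i with h | h <;> rw [h]
        exacts [Or.inl (pow_zero x), Or.inr (pow_one x)]
      rw [e1]
      rcases hmod u i with h | h <;> rcases hmod v j with h' | h' <;> rw [h, h'] <;> simp [S]
    calc Nat.card F.range ≤ Nat.card S := Nat.card_le_card_of_injective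
          (fun r => (⟨r.1, hsub r⟩ : S)) fun a b h => Subtype.ext (congrArg (fun s : S => s.1) h)
      _ ≤ 4 := by rw [Nat.card_eq_finsetCard]; exact Finset.card_le_four
  have hker : F.ker = f₁.ker ⊓ f₂.ker := MonoidHom.ker_prod f₁ f₂
  have hidx : F.ker.index ≤ 4 := (Subgroup.index_ker F).trans_le hle
  have key : ∀ f : G →* DihedralGroup 2, Function.Surjective f → F.ker ≤ f.ker → F.ker = f.ker := by
    intro f hf hle'
    refine Subgroup.eq_of_le_of_card_ge hle' ?_
    have e1 := F.ker.index_mul_card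
    have e2 := f.ker.index_mul_card
    rw [Subgroup.index_ker f, MonoidHom.range_eq_top.mpr hf, Subgroup.card_top, hcard] at e2
    by_contra hlt
    have hlt' : Nat.card F.ker < Nat.card f.ker := not_le.mp hlt
    have : F.ker.index * Nat.card F.ker ≤ 4 * Nat.card F.ker := Nat.mul_le_mul_right _ hidx
    omega
  rw [← key f₁ h₁ (hker.trans_le inf_le_left), key f₂ h₂ (hker.trans_le inf_le_right)]

/-- The property of the subgroups in question. -/
def IsQuotientKernel (N : Subgroup G) : Prop :=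
  N.Normal ∧ (∀ (p : ℕ) [Fact p.Prime] (P : Sylow p N), IsCyclic P) ∧
    (N = ⊤ ∨
      (∃ f : G →* DihedralGroup 2, Function.Surjective f ∧ f.ker = N) ∨
      (∃ f : G →* alternatingGroup (Fin 4), Function.Surjective f ∧ f.ker = N) ∨
      (∃ f : G →* Equiv.Perm (Fin 4), Function.Surjective f ∧ f.ker = N) ∨
      (∃ f : G →* alternatingGroup (Fin 5), Function.Surjective f ∧ f.ker = N) ∨
      (∃ f : G →* Equiv.Perm (Fin 5), Function.Surjective f ∧ f.ker = N))

/-- Such a subgroup exists. -/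
theorem exists_quotientKernel (hfpf : ∀ e : G, e ≠ 1 → ∀ x : K, ψ e x = x → x = 1) :
    ∃ N : Subgroup G, IsQuotientKernel N := by
  have mk : ∀ {N : Subgroup G}, IsZGroup N → ∀ (p : ℕ) [Fact p.Prime] (P : Sylow p N), IsCyclic P :=
    fun _ p _ P => inferInstance
  rcases quotient_cases hfpf with hZ | ⟨f, hf, hk⟩ | ⟨f, hf, hk⟩ | ⟨f, hf, hk⟩ | ⟨f, hf, hk⟩ | ⟨f, hf, hk⟩
  · exact ⟨⊤, inferInstance, mk inferInstance, Or.inl rfl⟩
  · exact ⟨f.ker, f.normal_ker, mk hk, Or.inr (Or.inl ⟨f, hf, rfl⟩)⟩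
  · exact ⟨f.ker, f.normal_ker, mk hk, Or.inr (Or.inr (Or.inl ⟨f, hf, rfl⟩))⟩
  · exact ⟨f.ker, f.normal_ker, mk hk, Or.inr (Or.inr (Or.inr (Or.inl ⟨f, hf, rfl⟩)))⟩
  · exact ⟨f.ker, f.normal_ker, mk hk, Or.inr (Or.inr (Or.inr (Or.inr (Or.inl ⟨f, hf, rfl⟩))))⟩
  · exact ⟨f.ker, f.normal_ker, mk hk, Or.inr (Or.inr (Or.inr (Or.inr (Or.inr ⟨f, hf, rfl⟩))))⟩

/-- It is unique. -/
theorem quotientKernel_unique (hfpf : ∀ e : G, e ≠ 1 → ∀ x : K, ψ e x = x → x = 1)
    {N₁ N₂ : Subgroup G} (h₁ : IsQuotientKernel N₁) (h₂ : IsQuotientKernel N₂) : N₁ = N₂ := by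
  -- classify: top, Klein, or a large quotient
  have cls : ∀ {N : Subgroup G}, IsQuotientKernel N → N = ⊤ ∨
      (N ≠ ⊤ ∧ ¬ IsZGroup G ∧ ∃ f : G →* DihedralGroup 2, Function.Surjective f ∧ f.ker = N) ∨
      (¬ IsZGroup G ∧ 4 < N.index ∧ ∀ M : Subgroup G, IsQuotientKernel M → M ≤ N) := by
    intro N hN
    have big : ∀ {Q : Type} [Group Q] [Finite Q], NoCyclicNormal Q → 4 < Nat.card Q →
        ∀ f : G →* Q, Function.Surjective f → f.ker = N →
          ¬ IsZGroup G ∧ 4 < N.index ∧ ∀ M : Subgroup G, IsQuotientKernel M → M ≤ N := by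
      intro Q _ _ hQ hc f hf hk
      have : Nontrivial Q := Finite.one_lt_card_iff_nontrivial.mp (by omega)
      refine ⟨fun hZ => hQ.not_isZGroup (IsZGroup.of_surjective hf), ?_, fun M hM => ?_⟩
      · rw [← hk, Subgroup.index_ker, MonoidHom.range_eq_top.mpr hf, Subgroup.card_top]; exact hc
      · have := hM.1
        have : IsZGroup M := ⟨fun p hp P => @hM.2.1 p ⟨hp⟩ P⟩
        exact hk ▸ le_ker_of_isZGroup hQ f hf M
    rcases hN.2.2 with h | ⟨f, hf, hk⟩ | ⟨f, hf, hk⟩ | ⟨f, hf, hk⟩ | ⟨f, hf, hk⟩ | ⟨f, hf, hk⟩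
    · exact Or.inl h
    · refine Or.inr (Or.inl ⟨fun e => ?_, fun hZ => not_isZGroup_klein (IsZGroup.of_surjective hf), f, hf, hk⟩)
      obtain ⟨g, hg⟩ := hf (DihedralGroup.sr 0)
      have : g ∈ f.ker := by rw [hk, e]; exact Subgroup.mem_top g
      rw [MonoidHom.mem_ker, hg] at this
      exact absurd this (by decide +kernel)
    · exact Or.inr (Or.inr (big noCyclicNormal_A4 (by rw [Nat.card_eq_fintype_card]; decide +kernel) f hf hk))
    · exact Or.inr (Or.inr (big noCyclicNormal_S4 (by rw [Nat.card_eq_fintype_card]; decide +kernel) f hf hk))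
    · exact Or.inr (Or.inr (big noCyclicNormal_A5 (by rw [Nat.card_eq_fintype_card]; decide +kernel) f hf hk))
    · exact Or.inr (Or.inr (big noCyclicNormal_S5 (by rw [Nat.card_eq_fintype_card]; decide +kernel) f hf hk))
  have topZ : ∀ {N : Subgroup G}, IsQuotientKernel N → N = ⊤ → IsZGroup G := by
    intro N hN e
    subst e
    have : IsZGroup (⊤ : Subgroup G) := ⟨fun p hp P => @hN.2.1 p ⟨hp⟩ P⟩
    exact IsZGroup.of_surjective (f := (⊤ : Subgroup G).subtype) fun g => ⟨⟨g, trivial⟩, rfl⟩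
  have idx : ∀ {N : Subgroup G} (f : G →* DihedralGroup 2), Function.Surjective f → f.ker = N →
      N.index = 4 := fun {N} f hf hk => by
    rw [← hk, Subgroup.index_ker, MonoidHom.range_eq_top.mpr hf, Subgroup.card_top,
      Nat.card_eq_fintype_card]
    decide +kernel
  rcases cls h₁ with e₁ | ⟨-, z₁, f₁, hf₁, k₁⟩ | ⟨z₁, i₁, l₁⟩ <;>
    rcases cls h₂ with e₂ | ⟨-, z₂, f₂, hf₂, k₂⟩ | ⟨z₂, i₂, l₂⟩
  · rw [e₁, e₂]
  · exact absurd (topZ h₁ e₁) z₂
  · exact absurd (topZ h₁ e₁) z₂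
  · exact absurd (topZ h₂ e₂) z₁
  · rw [← k₁, ← k₂]; exact klein_ker_eq hfpf hf₁ hf₂
  · exfalso
    have := Nat.le_of_dvd (by rw [idx f₁ hf₁ k₁]; norm_num) (Subgroup.index_dvd_of_le (l₂ N₁ h₁))
    rw [idx f₁ hf₁ k₁] at this
    omega
  · exact absurd (topZ h₂ e₂) z₁
  · exfalso
    have := Nat.le_of_dvd (by rw [idx f₂ hf₂ k₂]; norm_num) (Subgroup.index_dvd_of_le (l₁ N₂ h₂))
    rw [idx f₂ hf₂ k₂] at this
    omega
  · exact le_antisymm (l₂ N₁ h₁) (l₁ N₂ h₂)

end Cfsg.Agent.H21
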